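import Cfsg.Agent.Lib.FsTw.Wrap
import Cfsg.Agent.Lib.Forms.Mat
import Cfsg.Agent.Lib.Forms.Witt

/-!
Indicators of the symplectic groups of characteristic two.
-/

set_option autoImplicit false

namespace CfsgLib.FsTw.Sp2

open Cfsg CfsgLib.Char QuadraticMap CfsgLib.Orth Matrix

section
variable {F V : Type*} [Field F] [Finite F] [CharP F 2] [AddCommGroup V] [Module F V] {Q : QuadraticForm F V}

theorem exists_c (σ : V →ₗ[F] V) (h : ∀ x y, polar Q (σ x) (σ y) = polar Q x y) :
    ∃ c : V →ₗ[F] F, ∀ x, Q (σ x) = Q x + c x * c x := by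
  have h2 : (2 : F) = 0 := CharTwo.two_eq_zero
  choose c hc using fun x => isSquare_of_charTwo h2 (Q (σ x) - Q x)
  have inj : ∀ {a b : F}, a * a = b * b → a = b := fun {a b} e =>
    sub_eq_zero.1 (mul_self_eq_zero.1 (by linear_combination e + (b * b - a * b) * h2))
  refine ⟨⟨⟨c, fun x y => inj ?_⟩, fun a x => inj ?_⟩, fun x => by rw [← sub_eq_iff_eq_add', hc]; rfl⟩
  · rw [← hc, map_add, Q_add, Q_add, h]
    linear_combination hc x + hc y - c x * c y * h2
  · rw [← hc, map_smul, Q_smul, Q_smul, RingHom.id_apply, smul_eq_mul]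
    linear_combination a * a * hc x

/-- an isometry of the polar form preserves some quadratic form with the same polar form -/
theorem exists_form (σ : V →ₗ[F] V) (h : ∀ x y, polar Q (σ x) (σ y) = polar Q x y) :
    ∃ Q' : QuadraticForm F V, (∀ x y, polar Q' x y = polar Q x y) ∧ ∀ x, Q' (σ x) = Q' x := by
  have h2 : (2 : F) = 0 := CharTwo.two_eq_zero
  obtain ⟨c, hc⟩ := exists_c σ h
  have : c ∈ LinearMap.range (σ - LinearMap.id).dualMap := by
    rw [LinearMap.range_dualMap_eq_dualAnnihilator_ker, Submodule.mem_dualAnnihilator]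
    intro w hw
    have := hc w
    rw [show σ w = w from sub_eq_zero.1 hw, left_eq_add] at this
    exact mul_self_eq_zero.1 this
  obtain ⟨l, rfl⟩ := this
  refine ⟨Q + linMulLin l l, fun x y => ?_, fun x => ?_⟩
  · simp only [polar, _root_.add_apply, linMulLin_apply, map_add]
    linear_combination l x * l y * h2
  · have := hc x
    simp only [LinearMap.dualMap_apply, LinearMap.sub_apply, LinearMap.id_apply, map_sub] at this
    simp only [_root_.add_apply, linMulLin_apply, this]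
    linear_combination (l (σ x) * l (σ x) - l (σ x) * l x) * h2

/-- the form `Q x + a² + a b` -/
def ext (Q : QuadraticForm F V) : QuadraticForm F (V × F × F) :=
  Q.prod (linMulLin (LinearMap.fst F F F) (LinearMap.fst F F F + LinearMap.snd F F F))

omit [Finite F] [CharP F 2] in
theorem ext_apply (x : V × F × F) : ext Q x = Q x.1 + x.2.1 * (x.2.1 + x.2.2) := rfl

omit [Finite F] in
theorem polar_ext (x y : V × F × F) : polar (ext Q) x y = polar Q x.1 y.1 + (x.2.1 * y.2.2 + x.2.2 * y.2.1) := by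
  simp only [polar, ext_apply, Prod.fst_add, Prod.snd_add]
  linear_combination x.2.1 * y.2.1 * (CharTwo.two_eq_zero (R := F))

omit [Finite F] in
theorem ext_nd (hQ : (polarBilin Q).Nondegenerate) : (polarBilin (ext Q)).Nondegenerate :=
  nondegenerate_of_polar fun x hx => Prod.ext (eq_zero_of_polar hQ fun y => by simpa [polar_ext] using hx (y, 0, 0))
    (Prod.ext (by simpa [polar_ext] using hx (0, 0, 1)) (by simpa [polar_ext] using hx (0, 1, 0)))

omit [Finite F] in
theorem snd_zero (g : MulAction.stabilizer (OG (ext Q)) ((0, 1, 0) : V × F × F)) (x : V) : (g.1.1 (x, 0, 0)).2.2 = 0 := by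
  have := OG.map_polar g.1 (0, 1, 0) (x, 0, 0)
  rw [show g.1.1 (0, 1, 0) = (0, 1, 0) from g.2] at this
  simpa [polar_ext] using this

/-- the action of the stabiliser of `(0, 1, 0)` on `V` -/
def act (Q : QuadraticForm F V) : MulAction.stabilizer (OG (ext Q)) ((0, 1, 0) : V × F × F) →* Module.End F V where
  toFun g := LinearMap.fst F V _ ∘ₗ g.1.1.toLinearMap ∘ₗ LinearMap.inl F V _
  map_one' := rfl
  map_mul' g h := LinearMap.ext fun x => by
    have e : h.1.1 (x, 0, 0) = ((h.1.1 (x, 0, 0)).1, 0, 0) + (h.1.1 (x, 0, 0)).2.1 • (0, 1, 0) :=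
      Prod.ext (by simp) (Prod.ext (by simp) (by simp [snd_zero]))
    change (g.1.1 (h.1.1 (x, 0, 0))).1 = (g.1.1 ((h.1.1 (x, 0, 0)).1, 0, 0)).1
    conv_lhs => rw [e, map_add, map_smul, show g.1.1 (0, 1, 0) = (0, 1, 0) from g.2]
    simp

omit [Finite F] in
theorem act_polar (g : MulAction.stabilizer (OG (ext Q)) ((0, 1, 0) : V × F × F)) (x y : V) :
    polar Q (act Q g x) (act Q g y) = polar Q x y := by
  have := OG.map_polar g.1 (x, 0, 0) (y, 0, 0)
  simp only [polar_ext, snd_zero, mul_zero, zero_mul, add_zero] at this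
  exact this

theorem act_surj [FiniteDimensional F V] (hQ : (polarBilin Q).Nondegenerate) (σ : V →ₗ[F] V)
    (h : ∀ x y, polar Q (σ x) (σ y) = polar Q x y) : ∃ g, act Q g = σ := by
  have h2 : (2 : F) = 0 := CharTwo.two_eq_zero
  obtain ⟨c, hc⟩ := exists_c σ h
  obtain ⟨g, h1, h3⟩ := Forms.witt_quad (ext Q) (ext_nd hQ) (LinearMap.ker (LinearMap.snd F F F ∘ₗ LinearMap.snd F V _))
    (((σ ∘ₗ LinearMap.fst F V _).prod ((LinearMap.fst F F F ∘ₗ LinearMap.snd F V _ + c ∘ₗ LinearMap.fst F V _).prod 0)) ∘ₗ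
      Submodule.subtype _) (by
      rw [← LinearMap.ker_eq_bot, LinearMap.ker_eq_bot']
      rintro ⟨⟨x, a, b⟩, hb⟩ e
      have e1 : σ x = 0 := congrArg Prod.fst e
      have e2 : a + c x = 0 := congrArg (fun t => t.2.1) e
      have x0 : x = 0 := eq_zero_of_polar hQ fun y => by rw [← h, e1, polar_zero_left]
      rw [x0, map_zero, add_zero] at e2
      exact Subtype.ext (Prod.ext x0 (Prod.ext e2 hb))) (by
      rintro ⟨⟨x, a, b⟩, hb⟩
      change Q (σ x) + (a + c x) * (a + c x + 0) = Q x + a * (a + b)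
      rw [hc, show b = 0 from hb]
      linear_combination (c x * c x + a * c x) * h2)
  exact ⟨⟨⟨g, h1⟩, (h3 ⟨(0, 1, 0), rfl⟩).trans (by simp)⟩, LinearMap.ext fun x => congrArg Prod.fst (h3 ⟨(x, 0, 0), rfl⟩)⟩

end

variable {F : Type*} [Field F] [Finite F] [CharP F 2] {n : ℕ}

omit [Finite F] in
theorem polar_eq (u v : Fin n ⊕ Fin n → F) : polar (qPlus n F) u v = Forms.spB (Fin n) F u v := by
  rw [polar_qPlus, Forms.spB_eq_sum]
  exact Finset.sum_congr rfl fun i _ => by rw [CharTwo.sub_eq_add, add_comm]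

theorem nq_sp : NQ (symplecticGroup (Fin n) F) := by
  have := finite_OG (ext (qPlus n F))
  have h : NQ (MulAction.stabilizer (OG (ext (qPlus n F))) ((0, 1, 0) : (Fin n ⊕ Fin n → F) × F × F)) :=
    nq_stab (F := F) (V := (Fin n ⊕ Fin n → F) × F × F) (ext_nd (qPlus_nondegenerate n)) (Or.inr (by simp [ext_apply]))
  refine h.of_surj
    (MonoidHom.codRestrict ((LinearMap.toMatrixAlgEquiv' (R := F) (n := Fin n ⊕ Fin n)).toMonoidHom.comp (act (qPlus n F)))
      (symplecticGroup (Fin n) F) fun g => (Forms.mem_sp_iff _).2 fun u v => ?_) fun A => ?_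
  · have := act_polar g u v
    rw [polar_eq, polar_eq] at this
    simpa [LinearMap.toMatrixAlgEquiv'] using this
  · obtain ⟨g, hg⟩ := act_surj (qPlus_nondegenerate n) (Matrix.toLin' A.1) fun x y => by
      rw [polar_eq, polar_eq]; exact (Forms.mem_sp_iff _).1 A.2 x y
    exact ⟨g, Subtype.ext (by simp [hg, LinearMap.toMatrixAlgEquiv'])⟩

theorem real_sp (A : symplecticGroup (Fin n) F) : ∃ T, T * A * T⁻¹ = A⁻¹ := by
  obtain ⟨Q, h1, h2⟩ := exists_form (Q := qPlus n F) (Matrix.toLin' A.1) fun x y => by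
    rw [polar_eq, polar_eq]; exact (Forms.mem_sp_iff _).1 A.2 x y
  have hQ : (polarBilin Q).Nondegenerate :=
    nondegenerate_of_polar fun x hx => eq_zero_of_polar (qPlus_nondegenerate n) fun y => h1 x y ▸ hx y
  obtain ⟨t, ht⟩ := real_og hQ (OG.ofMap hQ _ h2)
  obtain ⟨T, hT⟩ := Forms.exists_sp_of_linearMap t.1.toLinearMap ((Forms.spPQ_isIso _ _ _).2 fun x y => by
    rw [← polar_eq, ← polar_eq, ← h1, ← h1]; exact OG.map_polar t x y)
  refine ⟨T, ?_⟩
  rw [mul_inv_eq_iff_eq_mul, eq_inv_mul_iff_mul_eq] at ht ⊢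
  refine Subtype.ext (matrix_eq_of_mulVec fun v => ?_)
  rw [Submonoid.coe_mul, Submonoid.coe_mul, ← mulVec_mulVec, ← mulVec_mulVec, hT, hT]
  exact congrArg (fun g : OG Q => g.1 v) ht

end CfsgLib.FsTw.Sp2
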